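import Cfsg.Agent.H140.TL.Levi
import Cfsg.Agent.H140.TL.Seven
import Cfsg.Agent.H140.TC.Fam
import Cfsg.Agent.H777.T6.Defs

/-!
# S2464, `PΩ_(2n+1)(q)`, `q` odd (helper140)

`t6_of_gf` : `GF n N f`, `TLf n f`, `N` prime to `6` give the row `PΩ_(2n+1)(q)`; `t6_seven` : `Ω₇(q)`.
-/

set_option autoImplicit false
set_option linter.unusedSectionVars false

namespace Cfsg.Agent.H140.TL

open Module QuadraticMap Matrix Polynomial Cfsg.Agent.LieClassical.OrthCore Cfsg.Agent.LieClassical.OrthTrans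
  Cfsg.Agent.LieClassical.OrthFinite Cfsg.Agent.LieClassical.OrthForms Cfsg.Agent.H140.OreO Cfsg.Agent.H126.PwO
  Cfsg.Agent.H962.PP Cfsg.Agent.H141.SpinFacts Cfsg.Agent.H160.QSpin Cfsg.Agent.H140.TC Cfsg.Agent.H781.TC6
open Cfsg.Agent.H434.Corn (MaxTS)

/-- two fixed classes of elements of order prime to `6` -/
def SixTwo {F V : Type*} [Field F] [AddCommGroup V] [Module F V] (Q : QuadraticForm F V) : Prop :=
  ∃ x₀ ∈ Om Q, ∃ y₀ ∈ Om Q, (∃ s : ℕ, s.Coprime 6 ∧ x₀ ^ s = 1) ∧ (∃ t : ℕ, t.Coprime 6 ∧ y₀ ^ t = 1) ∧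
    TwoOf Q x₀ y₀

theorem t6_of_sixTwo {ι : Type} [Fintype ι] [DecidableEq ι] {F : Type*} [Field F] (Q : QuadraticForm F (ι → F))
    (h : SixTwo Q) : H777.T6.T6 (Cfsg.POmega F ⇑Q) := by
  obtain ⟨x₀, hx₀, y₀, hy₀, ⟨s, hs, hxs⟩, ⟨t, ht, hyt⟩, h⟩ := h
  have hord : ∀ (z : (ι → F) ≃ₗ[F] (ι → F)) (hz : z ∈ Om Q) (m : ℕ), m.Coprime 6 → z ^ m = 1 →
      Nat.Coprime (orderOf (QuotientGroup.mk ((omegaEquiv Q).symm ⟨z, hz⟩) : Cfsg.POmega F ⇑Q)) 6 := by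
    intro z hz m hm hzm
    refine Nat.Coprime.coprime_dvd_left ?_ hm
    apply orderOf_dvd_of_pow_eq_one
    have h1 : (⟨z, hz⟩ : Om Q) ^ m = 1 := Subtype.ext hzm
    rw [← QuotientGroup.mk_pow, ← map_pow, h1, map_one]
    rfl
  refine ⟨QuotientGroup.mk ((omegaEquiv Q).symm ⟨x₀, hx₀⟩), QuotientGroup.mk ((omegaEquiv Q).symm ⟨y₀, hy₀⟩),
    hord _ _ _ hs hxs, hord _ _ _ ht hyt, fun g hg => ?_⟩
  obtain ⟨g, rfl⟩ := QuotientGroup.mk_surjective g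
  have hs : ∀ c : F, ∃ v, (omegaEquiv Q g : (ι → F) ≃ₗ[F] (ι → F)) v ≠ c • v := by
    by_contra hs
    push Not at hs
    obtain ⟨c, hc⟩ := hs
    apply hg
    have hcen : g ∈ Subgroup.center (Cfsg.Omega F ⇑Q) := by
      rw [Subgroup.mem_center_iff]
      intro k
      apply (omegaEquiv Q).injective
      rw [map_mul, map_mul]
      apply Subtype.ext
      apply LinearEquiv.ext
      intro v
      show (omegaEquiv Q k : (ι → F) ≃ₗ[F] (ι → F)) ((omegaEquiv Q g : (ι → F) ≃ₗ[F] (ι → F)) v) =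
        (omegaEquiv Q g : (ι → F) ≃ₗ[F] (ι → F)) ((omegaEquiv Q k : (ι → F) ≃ₗ[F] (ι → F)) v)
      rw [hc, hc, map_smul]
    exact (QuotientGroup.eq_one_iff g).2 hcen
  obtain ⟨u, hu, v, hv, e⟩ := h _ (omegaEquiv Q g).2 hs
  refine ⟨QuotientGroup.mk ((omegaEquiv Q).symm ⟨u, hu⟩), QuotientGroup.mk ((omegaEquiv Q).symm ⟨v, hv⟩), ?_⟩
  have e2 : g = ((omegaEquiv Q).symm ⟨u, hu⟩ * (omegaEquiv Q).symm ⟨x₀, hx₀⟩ * ((omegaEquiv Q).symm ⟨u, hu⟩)⁻¹) *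
      ((omegaEquiv Q).symm ⟨v, hv⟩ * (omegaEquiv Q).symm ⟨y₀, hy₀⟩ * ((omegaEquiv Q).symm ⟨v, hv⟩)⁻¹) := by
    apply (omegaEquiv Q).injective
    simp only [map_mul, map_inv, MulEquiv.apply_symm_apply]
    exact Subtype.ext e
  conv_lhs => rw [e2]
  rfl

variable {F V : Type*} [Field F] [AddCommGroup V] [Module F V] {Q : QuadraticForm F V} {n : ℕ}

section Fin

variable [Finite F] [FiniteDimensional F V]

theorem sixTwo_of_frames (hQ : Nondeg Q) {m : ℕ} (hm : 3 ≤ m) (hW : ∀ W, MaxTS Q W → finrank F W = m)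
    (H : ∀ e e' : Fin m → V, Frame Q e e' → SixTwo Q) : SixTwo Q := by
  by_cases h : ∃ g ∈ Om Q, ∀ c : F, ∃ v, g v ≠ c • v
  · obtain ⟨g, hg, hns⟩ := h
    obtain ⟨w, w', hf, -⟩ := nsCorner hQ hg hns hm hW
    exact H w w' hf
  · exact ⟨1, one_mem _, 1, one_mem _, ⟨1, by norm_num, one_pow _⟩, ⟨1, by norm_num, one_pow _⟩,
      fun g hg hns => absurd ⟨g, hg, hns⟩ h⟩

/-- **The geometric row.** -/
theorem sixTwo_of_gf (h2 : (2 : F) ≠ 0) (hQ : Nondeg Q) (hodd : Odd (finrank F V)) (hn : 3 ≤ n)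
    (hW : ∀ W, MaxTS Q W → finrank F W = n) {N : ℕ} {f : F[X]} (hN : N.Coprime 6) (hf : GF n N f) (hT : TLf n f) :
    SixTwo Q := by
  refine sixTwo_of_frames hQ hn hW fun e e' hfr => ?_
  have hf0 : f.coeff 0 ≠ 0 := by
    intro h0
    have h1 := hf.c0
    rw [h0, mul_zero] at h1
    exact zero_ne_one h1
  obtain ⟨X₀, hX₀⟩ := exists_matrix f hf.monic hf0 hf.deg
  have hcyc : ∀ X : Matrix (Fin n) (Fin n) F, X.charpoly = f → Cyc X := fun X hX =>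
    cyc_of_irr (by omega) (by rw [hX]; exact hf.irr)
  have hdet : (X₀ : Matrix (Fin n) (Fin n) F).det = 1 := det_of_charpoly hX₀ hf.c0
  have hpow : X₀ ^ N = 1 := pow_of_charpoly hX₀ hf.dvd
  have heval : ∀ {g : F[X]}, Irreducible g → g.natDegree = n → g.eval 1 ≠ 0 := by
    intro g hg hgd h0
    have h1 := Polynomial.degree_eq_one_of_irreducible_of_root hg h0
    rw [degree_eq_natDegree hg.ne_zero, hgd] at h1
    have h3 : n = 1 := by exact_mod_cast h1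
    omega
  have hcop : Cop X₀ (1 : perp Q e e' ≃ₗ[F] perp Q e e') := by
    apply cop_of_charpoly
    · rw [hX₀]; exact un_one (heval hf.irr hf.deg)
    · rw [hX₀]
      exact un_one (heval (irreducible_rev hf.irr hf0) (by rw [natDegree_rev hf0, hf.deg]))
    · rw [hX₀]; exact hf.cop
  obtain ⟨T, hTX, hTs⟩ := hf.nsq _ hX₀
  have hTX' : T * X₀ = X₀ * T := Units.ext hTX
  have hG : Good (MQ n (res Q e e')) := good_model hQ hn hfr
  have he : ∀ v, MQ n (res Q e e') (hfr.toModel v) = Q v := hfr.MQ_toModel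
  have hOm : (autE hfr.toModel).symm (lev X₀ (1 : perp Q e e' ≃ₗ[F] perp Q e e')) ∈ Om Q := by
    rw [← autE_mem_Om he, MulEquiv.apply_symm_apply]
    exact lev_det_one_mem hG hdet
  have hpw : (autE hfr.toModel).symm (lev X₀ (1 : perp Q e e' ≃ₗ[F] perp Q e e')) ^ N = 1 := by
    rw [← map_pow, lev_pow, hpow, one_pow, lev_one, map_one]
  have key := twoOf_levi h2 hQ hodd hn hW hfr (X₀ := X₀) (Y₀ := X₀) (fun A hA hns => by
    obtain ⟨X, Y, hXY, hX, hY⟩ := hT _ hA hns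
    obtain ⟨P, hP, hPX⟩ := conj_of_cyc (hcyc _ hX₀) (hcyc _ hX) (by rw [hX₀, hX])
    obtain ⟨R, hR, hRY⟩ := conj_of_cyc (hcyc _ hX₀) (hcyc _ hY) (by rw [hX₀, hY])
    obtain ⟨P', hP'⟩ : ∃ P' : GL (Fin n) F, (P' : Matrix _ _ F) = P :=
      ⟨Matrix.GeneralLinearGroup.mkOfDetNeZero P hP.ne_zero, rfl⟩
    obtain ⟨R', hR'⟩ : ∃ R' : GL (Fin n) F, (R' : Matrix _ _ F) = R :=
      ⟨Matrix.GeneralLinearGroup.mkOfDetNeZero R hR.ne_zero, rfl⟩
    refine ⟨P', R', Units.ext ?_⟩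
    simp only [Units.val_mul]
    rw [Matrix.coe_units_inv, Matrix.coe_units_inv, hP', hR', ← hPX, ← hRY, hXY])
    (x := 1) (O _).one_mem hcop (by rw [inv_one]; exact hcop) hTX' hTs hTX' hTs
  rw [inv_one] at key
  exact ⟨_, hOm, _, hOm, ⟨N, hN, hpw⟩, ⟨N, hN, hpw⟩, key⟩

end Fin

/-- **The row `PΩ_(2n+1)(q)`, `q` odd.** -/
theorem t6_of_gf {F : Type*} [Field F] [Finite F] (h2 : (2 : F) ≠ 0) {n : ℕ} (hn : 3 ≤ n) {N : ℕ} {f : F[X]}
    (hN : N.Coprime 6) (hf : GF n N f) (hT : TLf n f) : H777.T6.T6 (Cfsg.POmega F (Cfsg.quadFormOdd n F)) := by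
  have := Fintype.ofFinite F
  have h4 : SixTwo (oddForm n F) := sixTwo_of_gf h2 (nondeg_oddForm n F h2) (by
    rw [Module.finrank_fintype_fun_eq_card]
    exact ⟨n, by simp; ring⟩) hn (H295.War.witt_odd n) hN hf hT
  have h5 := t6_of_sixTwo (oddForm n F) h4
  rw [coe_oddForm] at h5
  exact h5

/-- **The row `Ω₇(q)`, `q` odd.** -/
theorem t6_seven {F : Type*} [Field F] [Finite F] (h2 : (2 : F) ≠ 0) :
    H777.T6.T6 (Cfsg.POmega F (Cfsg.quadFormOdd 3 F)) := by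
  obtain ⟨N, f, hN, hf, hT⟩ := gf_three h2
  exact t6_of_gf h2 le_rfl hN hf hT

end Cfsg.Agent.H140.TL
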