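import Cfsg.Agent.H140.TL.RowOdd
import Cfsg.Agent.H311.TC6.GF
import Cfsg.Agent.H494.TC.Base

/-!
# S2452 (and S2464), `PΩ_(2n+1)(q)`, `q` odd, `n` odd: one class of prime order (helper140)

* `pp_of_gf` : `GF n N f`, `TLf n f`, `N` prime, prime to `6`: `PP (PΩ_(2n+1)(q))`;
* `exists_gf_prime` : such an `f` exists for odd `n`;
* `pp_seven` : `Ω₇(q)`, all odd `q`.
-/

set_option autoImplicit false
set_option linter.unusedSectionVars false

namespace Cfsg.Agent.H140.TL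

open Module QuadraticMap Matrix Polynomial Cfsg.Agent.LieClassical.OrthCore Cfsg.Agent.LieClassical.OrthTrans
  Cfsg.Agent.LieClassical.OrthFinite Cfsg.Agent.LieClassical.OrthForms Cfsg.Agent.H140.OreO Cfsg.Agent.H126.PwO
  Cfsg.Agent.H962.PP Cfsg.Agent.H141.SpinFacts Cfsg.Agent.H160.QSpin Cfsg.Agent.H140.TC Cfsg.Agent.H781.TC6
open Cfsg.Agent.H434.Corn (MaxTS)
open Cfsg.Agent.H494.TC (PP)
open Cfsg.Agent.H126.M3 (cu)
open Cfsg.Agent.H538.TC (Sq exists_class exists_class_three exists_s eq_cu)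

/-- one fixed class, exponent `N` -/
def OneOf {F V : Type*} [Field F] [AddCommGroup V] [Module F V] (Q : QuadraticForm F V) (N : ℕ) : Prop :=
  ∃ x₀ ∈ Om Q, x₀ ^ N = 1 ∧ TwoOf Q x₀ x₀

theorem pp_of_oneOf {ι : Type} [Fintype ι] [DecidableEq ι] {F : Type*} [Field F] (Q : QuadraticForm F (ι → F))
    [Nontrivial (Cfsg.POmega F ⇑Q)] {N : ℕ} (hN : N.Prime) (h6 : N.Coprime 6) (h : OneOf Q N) :
    PP (Cfsg.POmega F ⇑Q) := by
  obtain ⟨x₀, hx₀, hxs, h⟩ := h
  obtain ⟨x, hx⟩ : ∃ x : Cfsg.POmega F ⇑Q, x = QuotientGroup.mk ((omegaEquiv Q).symm ⟨x₀, hx₀⟩) := ⟨_, rfl⟩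
  have hpow : x ^ N = 1 := by
    have h1 : (⟨x₀, hx₀⟩ : Om Q) ^ N = 1 := Subtype.ext hxs
    rw [hx, ← QuotientGroup.mk_pow, ← map_pow, h1, map_one]
    rfl
  have key : ∀ g : Cfsg.POmega F ⇑Q, g ≠ 1 → ∃ u v, g = (u * x * u⁻¹) * (v * x * v⁻¹) := by
    intro g hg
    obtain ⟨g, rfl⟩ := QuotientGroup.mk_surjective g
    have hs : ∀ c : F, ∃ v, (omegaEquiv Q g : (ι → F) ≃ₗ[F] (ι → F)) v ≠ c • v := by
      by_contra hs
      push Not at hs
      obtain ⟨c, hc⟩ := hs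
      apply hg
      have hcen : g ∈ Subgroup.center (Cfsg.Omega F ⇑Q) := by
        rw [Subgroup.mem_center_iff]
        intro k
        apply (omegaEquiv Q).injective
        rw [map_mul, map_mul]
        apply Subtype.ext
        apply LinearEquiv.ext
        intro v
        show (omegaEquiv Q k : (ι → F) ≃ₗ[F] (ι → F)) ((omegaEquiv Q g : (ι → F) ≃ₗ[F] (ι → F)) v) =
          (omegaEquiv Q g : (ι → F) ≃ₗ[F] (ι → F)) ((omegaEquiv Q k : (ι → F) ≃ₗ[F] (ι → F)) v)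
        rw [hc, hc, map_smul]
      exact (QuotientGroup.eq_one_iff g).2 hcen
    obtain ⟨u, hu, v, hv, e⟩ := h _ (omegaEquiv Q g).2 hs
    refine ⟨QuotientGroup.mk ((omegaEquiv Q).symm ⟨u, hu⟩), QuotientGroup.mk ((omegaEquiv Q).symm ⟨v, hv⟩), ?_⟩
    have e2 : g = ((omegaEquiv Q).symm ⟨u, hu⟩ * (omegaEquiv Q).symm ⟨x₀, hx₀⟩ * ((omegaEquiv Q).symm ⟨u, hu⟩)⁻¹) *
        ((omegaEquiv Q).symm ⟨v, hv⟩ * (omegaEquiv Q).symm ⟨x₀, hx₀⟩ * ((omegaEquiv Q).symm ⟨v, hv⟩)⁻¹) := by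
      apply (omegaEquiv Q).injective
      simp only [map_mul, map_inv, MulEquiv.apply_symm_apply]
      exact Subtype.ext e
    rw [hx]
    conv_lhs => rw [e2]
    rfl
  have hx1 : x ≠ 1 := by
    intro h1
    obtain ⟨g, hg⟩ := exists_ne (1 : Cfsg.POmega F ⇑Q)
    obtain ⟨u, v, e⟩ := key g hg
    rw [h1] at e
    apply hg
    rw [e]
    group
  have hord : orderOf x = N := by
    rcases (Nat.dvd_prime hN).1 (orderOf_dvd_of_pow_eq_one hpow) with h1 | h1
    · exact absurd (orderOf_eq_one_iff.1 h1) hx1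
    · exact h1
  exact ⟨x, by rw [hord]; exact hN, by rw [hord]; exact h6, key⟩

variable {F V : Type*} [Field F] [AddCommGroup V] [Module F V] {Q : QuadraticForm F V} {n : ℕ}

section Fin

variable [Finite F] [FiniteDimensional F V]

/-- **The geometric row, one class.** -/
theorem oneOf_of_gf (h2 : (2 : F) ≠ 0) (hQ : Nondeg Q) (hodd : Odd (finrank F V)) (hn : 3 ≤ n)
    (hW : ∀ W, MaxTS Q W → finrank F W = n) {N : ℕ} {f : F[X]} (hf : GF n N f) (hT : TLf n f) : OneOf Q N := by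
  by_cases hex : ∃ g ∈ Om Q, ∀ c : F, ∃ v, g v ≠ c • v
  swap
  · exact ⟨1, one_mem _, one_pow _, fun g hg hns => absurd ⟨g, hg, hns⟩ hex⟩
  obtain ⟨e, e', hfr⟩ : ∃ e e' : Fin n → V, Frame Q e e' := by
    obtain ⟨g, hg, hns⟩ := hex
    obtain ⟨w, w', hf, -⟩ := nsCorner hQ hg hns hn hW
    exact ⟨w, w', hf⟩
  have hf0 : f.coeff 0 ≠ 0 := by
    intro h0
    have h1 := hf.c0
    rw [h0, mul_zero] at h1
    exact zero_ne_one h1
  obtain ⟨X₀, hX₀⟩ := exists_matrix f hf.monic hf0 hf.deg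
  have hcyc : ∀ X : Matrix (Fin n) (Fin n) F, X.charpoly = f → Cyc X := fun X hX =>
    cyc_of_irr (by omega) (by rw [hX]; exact hf.irr)
  have hdet : (X₀ : Matrix (Fin n) (Fin n) F).det = 1 := det_of_charpoly hX₀ hf.c0
  have hpow : X₀ ^ N = 1 := pow_of_charpoly hX₀ hf.dvd
  have heval : ∀ {g : F[X]}, Irreducible g → g.natDegree = n → g.eval 1 ≠ 0 := by
    intro g hg hgd h0
    have h1 := Polynomial.degree_eq_one_of_irreducible_of_root hg h0
    rw [degree_eq_natDegree hg.ne_zero, hgd] at h1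
    have h3 : n = 1 := by exact_mod_cast h1
    omega
  have hcop : Cop X₀ (1 : perp Q e e' ≃ₗ[F] perp Q e e') := by
    apply cop_of_charpoly
    · rw [hX₀]; exact un_one (heval hf.irr hf.deg)
    · rw [hX₀]
      exact un_one (heval (irreducible_rev hf.irr hf0) (by rw [natDegree_rev hf0, hf.deg]))
    · rw [hX₀]; exact hf.cop
  obtain ⟨T, hTX, hTs⟩ := hf.nsq _ hX₀
  have hTX' : T * X₀ = X₀ * T := Units.ext hTX
  have hG : Good (MQ n (res Q e e')) := good_model hQ hn hfr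
  have he : ∀ v, MQ n (res Q e e') (hfr.toModel v) = Q v := hfr.MQ_toModel
  have hOm : (autE hfr.toModel).symm (lev X₀ (1 : perp Q e e' ≃ₗ[F] perp Q e e')) ∈ Om Q := by
    rw [← autE_mem_Om he, MulEquiv.apply_symm_apply]
    exact lev_det_one_mem hG hdet
  have hpw : (autE hfr.toModel).symm (lev X₀ (1 : perp Q e e' ≃ₗ[F] perp Q e e')) ^ N = 1 := by
    rw [← map_pow, lev_pow, hpow, one_pow, lev_one, map_one]
  have key := twoOf_levi h2 hQ hodd hn hW hfr (X₀ := X₀) (Y₀ := X₀) (fun A hA hns => by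
    obtain ⟨X, Y, hXY, hX, hY⟩ := hT _ hA hns
    obtain ⟨P, hP, hPX⟩ := conj_of_cyc (hcyc _ hX₀) (hcyc _ hX) (by rw [hX₀, hX])
    obtain ⟨R, hR, hRY⟩ := conj_of_cyc (hcyc _ hX₀) (hcyc _ hY) (by rw [hX₀, hY])
    obtain ⟨P', hP'⟩ : ∃ P' : GL (Fin n) F, (P' : Matrix _ _ F) = P :=
      ⟨Matrix.GeneralLinearGroup.mkOfDetNeZero P hP.ne_zero, rfl⟩
    obtain ⟨R', hR'⟩ : ∃ R' : GL (Fin n) F, (R' : Matrix _ _ F) = R :=
      ⟨Matrix.GeneralLinearGroup.mkOfDetNeZero R hR.ne_zero, rfl⟩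
    refine ⟨P', R', Units.ext ?_⟩
    simp only [Units.val_mul]
    rw [Matrix.coe_units_inv, Matrix.coe_units_inv, hP', hR', ← hPX, ← hRY, hXY])
    (x := 1) (O _).one_mem hcop (by rw [inv_one]; exact hcop) hTX' hTs hTX' hTs
  rw [inv_one] at key
  exact ⟨_, hOm, hpw, key⟩

end Fin

/-- **One class of prime order, `PΩ_(2n+1)(q)`, `q` odd.** -/
theorem pp_of_gf {F : Type*} [Field F] [Finite F] (h2 : (2 : F) ≠ 0) {n : ℕ} (hn : 3 ≤ n) {N : ℕ} {f : F[X]}
    (hN : N.Prime) (h6 : N.Coprime 6) (hf : GF n N f) (hT : TLf n f) :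
    PP (Cfsg.POmega F (Cfsg.quadFormOdd n F)) := by
  have := Fintype.ofFinite F
  have hd : finrank F (Unit ⊕ (Fin n ⊕ Fin n) → F) = 2 * n + 1 := by
    rw [Module.finrank_fintype_fun_eq_card]
    simp
    ring
  have hnd := nondeg_oddForm n F h2
  have h4 : OneOf (oddForm n F) N := oneOf_of_gf h2 hnd ⟨n, hd⟩ hn (H295.War.witt_odd n) hf hT
  have hs : IsSimpleGroup (Cfsg.POmega F ⇑(oddForm n F)) :=
    isSimpleGroup_POmega_of_good (good_of_finite hnd (by rw [hd]; omega))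
  have h5 := pp_of_oneOf (oddForm n F) hN h6 h4
  rw [coe_oddForm] at h5
  exact h5

/-- **The polynomial, `n` odd.** -/
theorem exists_gf_prime {F : Type*} [Field F] [Finite F] (hodd : Odd (Nat.card F)) {n : ℕ} (hn : 3 ≤ n)
    (hno : Odd n) : ∃ (r : ℕ) (f : F[X]), r.Prime ∧ r.Coprime 6 ∧ GF n r f := by
  have hq : 2 ≤ Nat.card F := Finite.one_lt_card
  have hq2 : Nat.card F ≠ 2 := by intro h; rw [h] at hodd; exact absurd hodd (by decide)
  obtain ⟨r, hr, h5, hiff⟩ := H311.TC6.exists_five hq hn (by rintro ⟨h, -⟩; exact hq2 h)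
  have hrq : ¬ r ∣ Nat.card F - 1 := by
    intro h
    have := Nat.le_of_dvd (by norm_num) ((hiff 1).1 (by rwa [pow_one]))
    omega
  obtain ⟨f, f1, f2, f3, f4, f5, f6⟩ := H311.TC6.pf_of F (n := n) (N := r) (by omega) ((hiff _).2 dvd_rfl)
    (fun k hk hks h => by
      have := Nat.le_of_dvd hk ((hiff k).1 h)
      omega)
    (fun j hj h => by
      obtain ⟨-, hj2⟩ := H311.TC6.not_dvd_add h5 hiff hj h
      rw [hj2] at hno
      exact (Nat.not_odd_iff_even.2 (even_two_mul j)) hno)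
    ((hr.coprime_iff_not_dvd).2 hrq)
  have h0 : f.coeff 0 ≠ 0 := by
    intro h
    rw [h, mul_zero] at f6
    exact zero_ne_one f6
  exact ⟨r, f, hr, H311.TC6.cop_six hr h5, f1, f2, f3, f4, (f5 r).2 dvd_rfl, f6,
    fun A c hA => H311.TC6.ex_of f1 f2 f3 hn f5 h0 hr h5 dvd_rfl hiff (Or.inl hno) A c hA,
    fun A hA => H311.TC6.nsq_of hodd f1 f2 f3 (by omega) hA⟩

/-- from a class of `SL₃(q)` -/
theorem gf_of_class [Finite F] (h2 : (2 : F) ≠ 0) {c : Matrix.SpecialLinearGroup (Fin 3) F}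
    (hc : Irreducible (c : Matrix (Fin 3) (Fin 3) F).charpoly) (hsq : Sq c) :
    GF 3 (orderOf c) (c : Matrix (Fin 3) (Fin 3) F).charpoly ∧ TLf 3 (c : Matrix (Fin 3) (Fin 3) F).charpoly := by
  have := Fintype.ofFinite F
  obtain ⟨ν, hν⟩ : ∃ ν : F, ¬ IsSquare ν := FiniteField.exists_nonsquare (by
    intro h
    exact h2 (by have := ringChar.spec F 2; exact (this.2 (by rw [h])).symm ▸ (this.2 (by rw [h]))))
  have hm := Matrix.charpoly_monic (c : Matrix (Fin 3) (Fin 3) F)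
  have hd : (c : Matrix (Fin 3) (Fin 3) F).charpoly.natDegree = 3 := by
    rw [Matrix.charpoly_natDegree_eq_dim]; rfl
  have h0 : (c : Matrix (Fin 3) (Fin 3) F).charpoly.coeff 0 = -1 := by
    have h1 := det_eq_sign_charpoly_coeff (c : Matrix (Fin 3) (Fin 3) F)
    rw [c.2, Fintype.card_fin] at h1
    linear_combination h1
  have he := eq_cu hm hd h0
  obtain ⟨s, hs⟩ : ∃ s, s = -(c : Matrix (Fin 3) (Fin 3) F).charpoly.coeff 2 := ⟨_, rfl⟩
  obtain ⟨r, hr⟩ : ∃ r, r = (c : Matrix (Fin 3) (Fin 3) F).charpoly.coeff 1 := ⟨_, rfl⟩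
  rw [← hs, ← hr] at he
  have hirr : Irreducible (cu s r) := by rw [← he]; exact hc
  refine ⟨⟨hm, hc, hd, ?_, (H538.TC.pow_eq_one_iff_dvd hc _).1 (pow_orderOf_eq_one c), by rw [h0]; norm_num,
    fun X c hX => ?_, fun X _ => exists_scalar ⟨1, rfl⟩ hν X⟩, ?_⟩
  · rw [he]; exact cu_cop hirr
  · rw [he] at hX ⊢; exact cu_ex hirr hX c
  · intro A hA hns
    obtain ⟨a, b, hab⟩ := hsq ⟨A, hA⟩ hns
    have hchar : ∀ a : Matrix.SpecialLinearGroup (Fin 3) F,
        ((a * c * a⁻¹ : Matrix.SpecialLinearGroup (Fin 3) F) : Matrix (Fin 3) (Fin 3) F).charpoly =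
          (c : Matrix (Fin 3) (Fin 3) F).charpoly := by
      intro a
      rw [Matrix.SpecialLinearGroup.coe_mul (a * c) a⁻¹, Matrix.charpoly_mul_comm,
        ← Matrix.SpecialLinearGroup.coe_mul, inv_mul_cancel_left]
    exact ⟨_, _, (congrArg Subtype.val hab).symm, hchar a, hchar b⟩

/-- **`Ω₇(q)`, `q` odd: one class of prime order.** -/
theorem pp_seven {F : Type*} [Field F] [Finite F] (h2 : (2 : F) ≠ 0) :
    PP (Cfsg.POmega F (Cfsg.quadFormOdd 3 F)) := by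
  obtain ⟨c, hc, hp, h6, hsq⟩ : ∃ c : Matrix.SpecialLinearGroup (Fin 3) F,
      Irreducible (c : Matrix (Fin 3) (Fin 3) F).charpoly ∧ (orderOf c).Prime ∧ (orderOf c).Coprime 6 ∧ Sq c := by
    have hcard : 3 ≤ Nat.card F := by
      by_contra hcon
      have h3 : 2 ≤ Nat.card F := Finite.one_lt_card
      have h4 : Nat.card F = 2 := by omega
      apply h2
      have := Fintype.ofFinite F
      have h5 := Nat.cast_card_eq_zero F
      rw [← Nat.card_eq_fintype_card, h4] at h5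
      exact_mod_cast h5
    by_cases h3 : Nat.card F = 3
    · obtain ⟨c, -, h1, ho, h⟩ := exists_class_three h3
      exact ⟨c, h1, by rw [ho]; norm_num, by rw [ho]; norm_num, h⟩
    have h4 : Nat.card F ≠ 4 := by
      intro h4
      apply h2
      have := Fintype.ofFinite F
      have h5 := Nat.cast_card_eq_zero F
      rw [← Nat.card_eq_fintype_card, h4] at h5
      have h6 : ((4 : ℕ) : F) = 2 * 2 := by norm_num
      rw [h6] at h5
      exact mul_self_eq_zero.1 h5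
    obtain ⟨s, hs, h6, h1⟩ := exists_s (q := Nat.card F) (by omega)
    obtain ⟨p, hp, hps⟩ := Nat.exists_prime_and_dvd h1
    obtain ⟨c, hc, ho, h⟩ := exists_class (by omega) (hps.trans hs) (Nat.Coprime.coprime_dvd_left hps h6) hp.ne_one
    exact ⟨c, hc, by rw [ho]; exact hp, by rw [ho]; exact Nat.Coprime.coprime_dvd_left hps h6, h⟩
  obtain ⟨h7, h8⟩ := gf_of_class h2 hc hsq
  exact pp_of_gf h2 le_rfl hp h6 h7 h8

end Cfsg.Agent.H140.TL
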