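import Cfsg.Agent.H140.TL.RowPP
import Cfsg.Agent.H960.TL.Main

/-!
# S2452, `PΩ_(2n+1)(q)`, `q` odd, `n` odd (helper140)
-/

set_option autoImplicit false

namespace Cfsg.Agent.H140.TL

open Cfsg.Agent.H494.TC (PP)

theorem odd_card {F : Type*} [Field F] [Finite F] (h2 : (2 : F) ≠ 0) : Odd (Nat.card F) ∧ 3 ≤ Nat.card F := by
  have := Fintype.ofFinite F
  have h3 : Odd (Nat.card F) := by
    rw [Nat.card_eq_fintype_card]
    by_contra hev
    rw [Nat.not_odd_iff_even] at hev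
    have h5 := (FiniteField.even_card_iff_char_two (F := F)).2 (Nat.even_iff.1 hev)
    apply h2
    have h6 := ringChar.Nat.cast_ringChar (R := F)
    rw [h5] at h6
    exact_mod_cast h6
  have h4 : 2 ≤ Nat.card F := Finite.one_lt_card
  refine ⟨h3, ?_⟩
  by_contra hcon
  have h5 : Nat.card F = 2 := by omega
  rw [h5] at h3
  exact absurd h3 (by decide)

/-- **`PΩ_(2n+1)(q)`, `q` odd, `n ≥ 3` odd: one class of prime order, prime to `6`.** -/
theorem pp_odd {F : Type*} [Field F] [Finite F] (h2 : (2 : F) ≠ 0) {n : ℕ} (hn : 3 ≤ n) (hno : Odd n) :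
    PP (Cfsg.POmega F (Cfsg.quadFormOdd n F)) := by
  obtain ⟨hodd, h3⟩ := odd_card h2
  obtain ⟨r, f, hr, h6, hf⟩ := exists_gf_prime hodd hn hno
  exact pp_of_gf h2 hn hr h6 hf (H960.TL.tlf h3 hn hf)

end Cfsg.Agent.H140.TL
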